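import Mathlib
import Cfsg.Agent.Base
import Cfsg.Agent.Lib.ClassMax.C8

/-!
Groups generated by full transvection groups, odd characteristic: generalities and the blocks of
linear type.
-/

set_option autoImplicit false

namespace H30.McL

open Module H97

variable {F V : Type*} [Field F] [AddCommGroup V] [Module F V]

/-- `x ↦ x + φ x • u` is a non-trivial transvection in `H`. -/
structure D (H : Subgroup (V ≃ₗ[F] V)) (u : V) (φ : Dual F V) : Prop where
  ne : u ≠ 0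
  ne' : φ ≠ 0
  z : φ u = 0
  t : HasT H u φ

/-- The hypotheses on the group. -/
structure Hyp (H : Subgroup (V ≃ₗ[F] V)) : Prop where
  two : (2 : F) ≠ 0
  sc : ∀ (u : V) (φ : Dual F V) (c : F), φ u = 0 → HasT H u φ → HasT H u (c • φ)
  gen : ∀ N : Subgroup (V ≃ₗ[F] V), (∀ u φ, D H u φ → HasT N u φ) → H ≤ N
  chain : ∀ X Y : Submodule F V, H ≤ stab X → H ≤ stab Y → ∀ g ∈ H, (∀ v, g v - v ∈ Y) →
    (∀ v ∈ Y, g v - v ∈ X) → (∀ v ∈ X, g v = v) → g = 1

/-- `φ` vanishes on `C`. -/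
def Kills (φ : Dual F V) (C : Submodule F V) : Prop := ∀ c ∈ C, φ c = 0

variable {H : Subgroup (V ≃ₗ[F] V)}

theorem Hyp.sl (h : Hyp H) {u : V} {φ : Dual F V} (hz : φ u = 0) (ht : HasT H u φ) (c : F) :
    HasT H (c • u) φ := (hasT_smul_iff c u φ).2 (h.sc u φ c hz ht)

/-- conjugation of a transvection by a transvection -/
theorem Hyp.mv (h : Hyp H) {u v : V} {φ ψ : Dual F V} (hz : φ u = 0) (ht : HasT H u φ)
    (ht' : HasT H v ψ) (s : F) : HasT H (v + (s * φ v) • u) (ψ - (s * ψ u) • φ) := by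
  obtain ⟨g, hg, e⟩ := (h.sc u φ s hz ht).elim
  have := ht'.conj' hg (ψ := ψ - (s * ψ u) • φ) fun x => by
    rw [e]; simp [hz]; ring
  rwa [e] at this

theorem Hyp.mvD (h : Hyp H) {u v : V} {φ ψ : Dual F V} (hu : D H u φ) (hv : D H v ψ) (s : F) :
    D H (v + (s * φ v) • u) (ψ - (s * ψ u) • φ) := by
  refine ⟨fun h0 => hv.ne ?_, fun h0 => hv.ne' ?_, ?_, h.mv hu.z hu.t hv.t s⟩
  · have h1 := congrArg φ h0
    simp only [map_add, map_smul, hu.z, smul_zero, add_zero, map_zero] at h1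
    simpa [h1] using h0
  · have h1 := LinearMap.congr_fun h0 u
    simp only [LinearMap.sub_apply, LinearMap.smul_apply, hu.z, smul_zero, sub_zero,
      LinearMap.zero_apply] at h1
    simpa [h1] using h0
  · simp [hu.z, hv.z]; ring

theorem Hyp.scD (h : Hyp H) {u : V} {φ : Dual F V} (hu : D H u φ) {c : F} (hc : c ≠ 0) :
    D H u (c • φ) :=
  ⟨hu.ne, smul_ne_zero hc hu.ne', by simp [hu.z], h.sc u φ c hu.z hu.t⟩

theorem Hyp.slD (h : Hyp H) {u : V} {φ : Dual F V} (hu : D H u φ) {c : F} (hc : c ≠ 0) :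
    D H (c • u) φ :=
  ⟨smul_ne_zero hc hu.ne, hu.ne', by simp [hu.z], h.sl hu.z hu.t c⟩

theorem Hyp.comm (h : Hyp H) {u v : V} {φ ψ : Dual F V} (ht : HasT H u φ) (ht' : HasT H v ψ)
    (hu : φ u = 0) (hv : ψ v = 0) (huv : ψ u = 0) (hne : φ v ≠ 0) : HasT H u ψ := by
  have := h.sc u _ (φ v)⁻¹ (by simp [huv]) (ht.comm ht' hu hv huv)
  rwa [smul_smul, inv_mul_cancel₀ hne, one_smul] at this

theorem mem_of_inv {X : Submodule F V} (hX : H ≤ stab X) {u x : V} {φ : Dual F V}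
    (ht : HasT H u φ) (hx : x ∈ X) (hne : φ x ≠ 0) : u ∈ X := by
  obtain ⟨g, hg, e⟩ := ht.elim
  have h1 : g x ∈ X := (mem_stab.1 (hX hg) x).1 hx
  rw [e] at h1
  have h2 := X.smul_mem (φ x)⁻¹ (X.sub_mem h1 hx)
  rwa [add_sub_cancel_left, smul_smul, inv_mul_cancel₀ hne, one_smul] at h2

theorem Hyp.not_kills (h : Hyp H) {X : Submodule F V} (hX : H ≤ stab X) {u : V} {φ : Dual F V}
    (hu : D H u φ) (hm : u ∈ X) : ¬ Kills φ X := fun hk => by
  obtain ⟨g, hg, e⟩ := hu.t.elim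
  have h1 := h.chain X X hX hX g hg (fun v => by rw [e]; simpa using X.smul_mem _ hm)
    (fun v _ => by rw [e]; simpa using X.smul_mem _ hm) (fun v hv => by rw [e, hk v hv]; simp)
  refine hu.ne' (LinearMap.ext fun x => ?_)
  have h2 := e x
  rw [h1] at h2
  simpa [hu.ne] using h2

variable [FiniteDimensional F V]

theorem Hyp.inv (h : Hyp H) {X : Submodule F V}
    (hX : ∀ u φ, D H u φ → ∀ x ∈ X, x + φ x • u ∈ X) : H ≤ stab X :=
  h.gen _ fun u φ hu => by
    obtain ⟨g, -, e⟩ := hu.t.elim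
    exact ⟨g, mem_stab_of_maps fun v hv => by rw [e]; exact hX u φ hu v hv, e⟩

theorem Hyp.opp (h : Hyp H) {a : V} {α : Dual F V} (ha : D H a α) :
    ∃ b β, D H b β ∧ β a ≠ 0 ∧ α b ≠ 0 := by
  let S : Set V := {b | ∃ β, D H b β ∧ β a ≠ 0}
  let X := Submodule.span F (insert a S)
  have hX : H ≤ stab X := h.inv fun u φ hu x hx => by
    by_cases hua : φ a = 0
    · induction hx using Submodule.span_induction with
      | mem y hy =>
        rcases hy with rfl | ⟨β, hβ, hβa⟩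
        · simpa [hua] using Submodule.subset_span (Set.mem_insert _ _)
        · refine Submodule.subset_span (Or.inr ⟨_, by simpa using h.mvD hu hβ 1, ?_⟩)
          simpa [hua] using hβa
      | zero => simp
      | add y z _ _ hy hz =>
        convert X.add_mem hy hz using 1
        rw [map_add]; module
      | smul c y _ hy =>
        convert X.smul_mem c hy using 1
        rw [map_smul, smul_eq_mul]; module
    · exact X.add_mem hx (X.smul_mem _ (Submodule.subset_span (Or.inr ⟨φ, hu, hua⟩)))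
  by_contra hn
  push Not at hn
  refine h.not_kills hX ha (Submodule.subset_span (Set.mem_insert _ _)) fun x hx => ?_
  induction hx using Submodule.span_induction with
  | mem y hy =>
    rcases hy with rfl | ⟨β, hβ, hβa⟩
    · exact ha.z
    · exact hn y β hβ hβa
  | zero => simp
  | add y z _ _ hy hz => rw [map_add, hy, hz, add_zero]
  | smul c y _ hy => rw [map_smul, hy, smul_zero]

/-- All transvections of `W` (extended trivially to `C`) lie in `H`. -/
def Fl (H : Subgroup (V ≃ₗ[F] V)) (W C : Submodule F V) : Prop :=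
  ∀ w ∈ W, ∀ φ : Dual F V, Kills φ C → φ w = 0 → HasT H w φ

/-- centres attached to all axes -/
def KK (H : Subgroup (V ≃ₗ[F] V)) (C : Submodule F V) (k : V) : Prop :=
  k ∈ C ∧ ∀ φ : Dual F V, Kills φ C → HasT H k φ

/-- axes attached to all centres -/
def LL (H : Subgroup (V ≃ₗ[F] V)) (W : Submodule F V) (κ : Dual F V) : Prop :=
  Kills κ W ∧ ∀ w ∈ W, HasT H w κ

omit [FiniteDimensional F V] in
theorem kills_inf {C : Submodule F V} {k : V} {κ φ : Dual F V} (hk : k ∈ C) (h1 : κ k = 1)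
    (hφ : Kills φ (C ⊓ LinearMap.ker κ)) : Kills (φ - φ k • κ) C := fun c hc => by
  have := hφ (c - κ c • k) ⟨C.sub_mem hc (C.smul_mem _ hk), by simp [h1]⟩
  simp only [map_sub, map_smul, smul_eq_mul] at this
  simp only [LinearMap.sub_apply, LinearMap.smul_apply, smul_eq_mul]
  linear_combination this

omit [FiniteDimensional F V] in
theorem isCompl_ext {W C : Submodule F V} (hc : IsCompl W C) {k : V} {κ : Dual F V} (hk : k ∈ C)
    (hκ : Kills κ W) (h1 : κ k = 1) : IsCompl (W ⊔ F ∙ k) (C ⊓ LinearMap.ker κ) := by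
  refine ⟨Submodule.disjoint_def.2 fun x hx hx' => ?_, codisjoint_iff.2 (eq_top_iff.2 fun x _ => ?_)⟩
  · obtain ⟨w, hw, y, hy, rfl⟩ := Submodule.mem_sup.1 hx
    obtain ⟨s, rfl⟩ := Submodule.mem_span_singleton.1 hy
    have h2 : κ (w + s • k) = 0 := hx'.2
    rw [map_add, hκ w hw, map_smul, h1, zero_add, smul_eq_mul, mul_one] at h2
    subst h2
    rw [zero_smul, add_zero] at hx' ⊢
    exact Submodule.disjoint_def.1 hc.disjoint w hw hx'.1
  · obtain ⟨w, hw, c, hc', rfl⟩ := Submodule.mem_sup.1 (hc.sup_eq_top ▸ Submodule.mem_top (x := x))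
    refine Submodule.mem_sup.2 ⟨w + κ c • k, Submodule.add_mem_sup hw
      (Submodule.smul_mem _ _ (Submodule.mem_span_singleton_self k)), c - κ c • k,
      ⟨C.sub_mem hc' (C.smul_mem _ hk), by simp [h1]⟩, by module⟩

omit [FiniteDimensional F V] in
theorem Hyp.fl_ext (h : Hyp H) {W C : Submodule F V} (hf : Fl H W C) {k : V} {κ : Dual F V}
    (hk : KK H C k) (hκ : LL H W κ) (h1 : κ k = 1) : Fl H (W ⊔ F ∙ k) (C ⊓ LinearMap.ker κ) := by
  intro x hx φ hφ hz
  obtain ⟨w, hw, y, hy, rfl⟩ := Submodule.mem_sup.1 hx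
  obtain ⟨s, rfl⟩ := Submodule.mem_span_singleton.1 hy
  have h2 := kills_inf hk.1 h1 hφ
  have hκw := hκ.1 w hw
  rw [map_add, map_smul, smul_eq_mul] at hz
  by_cases hs : s = 0
  · subst hs
    rw [zero_smul, add_zero]
    rw [zero_mul, add_zero] at hz
    have := (hf w hw _ h2 (by simp [hz, hκw])).add_right (h.sc w κ (φ k) hκw (hκ.2 w hw))
      (by simp [hz, hκw])
    rwa [sub_add_cancel] at this
  · have h3 := h.mv hκw (hκ.2 w hw) (h.sl (h2 k hk.1) (hk.2 _ h2) s) s⁻¹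
    convert h3 using 1
    · rw [map_smul, h1, smul_eq_mul, mul_one, inv_mul_cancel₀ hs, one_smul, add_comm]
    · have : s⁻¹ * (φ - φ k • κ) w = -φ k := by
        simp only [LinearMap.sub_apply, LinearMap.smul_apply, hκw, smul_zero, sub_zero]
        field_simp
        linear_combination hz
      rw [this]; module

omit [FiniteDimensional F V] in
theorem Hyp.kk_ext (h : Hyp H) {C : Submodule F V} {k f : V} {κ : Dual F V} (hk : k ∈ C)
    (h1 : κ k = 1) (hf : KK H C f) (hz : κ f = 0) (ht : HasT H f κ) :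
    KK H (C ⊓ LinearMap.ker κ) f := by
  refine ⟨⟨hf.1, hz⟩, fun φ hφ => ?_⟩
  have h2 := kills_inf hk h1 hφ
  have := (hf.2 _ h2).add_right (h.sc f κ (φ k) hz ht) (h2 f hf.1)
  rwa [sub_add_cancel] at this

omit [FiniteDimensional F V] in
theorem Hyp.ll_ext (h : Hyp H) {W : Submodule F V} {k : V} {ψ : Dual F V} (hψ : LL H W ψ)
    (hz : ψ k = 0) (ht : HasT H k ψ) : LL H (W ⊔ F ∙ k) ψ := by
  constructor <;> intro x hx <;> obtain ⟨w, hw, y, hy, rfl⟩ := Submodule.mem_sup.1 hx <;>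
    obtain ⟨s, rfl⟩ := Submodule.mem_span_singleton.1 hy
  · simp [hψ.1 w hw, hz]
  · exact (hψ.2 w hw).add_left (h.sl hz ht s) (by simp [hz])

omit [FiniteDimensional F V] in
theorem kk_top (k : V) : KK H ⊤ k :=
  ⟨trivial, fun φ hφ => by
    rw [show φ = 0 from LinearMap.ext fun x => hφ x trivial]; exact hasT_zero_right k⟩

omit [FiniteDimensional F V] in
theorem ll_bot (κ : Dual F V) : LL H ⊥ κ :=
  ⟨fun x hx => by rw [(Submodule.mem_bot F).1 hx, map_zero],
    fun x hx => by rw [(Submodule.mem_bot F).1 hx]; exact hasT_zero_left κ⟩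

omit [FiniteDimensional F V] in
theorem fl_bot (C : Submodule F V) : Fl H ⊥ C := fun x hx φ _ _ => by
  rw [(Submodule.mem_bot F).1 hx]; exact hasT_zero_left φ

theorem finrank_ext {W : Submodule F V} {k : V} {κ : Dual F V} (hκ : Kills κ W) (h1 : κ k = 1) :
    finrank F W + 1 ≤ finrank F ↥(W ⊔ F ∙ k) := by
  refine Submodule.finrank_lt_finrank_of_lt (lt_of_le_of_ne le_sup_left fun e => ?_)
  have : k ∈ W := e ▸ Submodule.mem_sup_right (Submodule.mem_span_singleton_self k)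
  rw [hκ k this] at h1
  exact zero_ne_one h1

/-- A three-dimensional piece of linear type. -/
theorem Hyp.frame (h : Hyp H) {a b : V} {φ ψ : Dual F V} (ha : D H a φ) (hb : D H b ψ)
    (h1 : φ b ≠ 0) (h2 : ψ a = 0) :
    ∃ W C, IsCompl W C ∧ Fl H W C ∧ 3 ≤ finrank F W ∧ a ∈ W := by
  have haψ : HasT H a ψ := h.comm ha.t hb.t ha.z hb.z h2 h1
  obtain ⟨e, χ, he, hχa, hφe⟩ := h.opp ha
  set ψ' := ψ - (ψ e / φ e) • φ with hψ'
  have hψ'e : ψ' e = 0 := by simp [hψ', hφe]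
  have hψ'a : ψ' a = 0 := by simp [hψ', h2, ha.z]
  have haψ' : D H a ψ' := by
    refine ⟨ha.ne, fun h0 => ?_, hψ'a, haψ.sub_right (h.sc a φ _ ha.z ha.t) h2 (by simp [ha.z])⟩
    have h3 := LinearMap.congr_fun h0 b
    simp only [hψ', LinearMap.sub_apply, hb.z, LinearMap.smul_apply, smul_eq_mul, zero_sub,
      LinearMap.zero_apply, neg_eq_zero, mul_eq_zero, h1, or_false] at h3
    rw [hψ', h3, zero_smul, sub_zero] at h0
    exact hb.ne' h0
  have heψ' : D H e ψ' := ⟨he.ne, haψ'.ne', hψ'e, h.comm he.t haψ'.t he.z hψ'a hψ'e hχa⟩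
  obtain ⟨f0, ω0, hf0, hω0, hψf0⟩ := h.opp haψ'
  have hf1 := h.mvD heψ' hf0 (-(φ f0) / (ψ' f0 * φ e))
  set f1 := f0 + (-(φ f0) / (ψ' f0 * φ e) * ψ' f0) • e with hf1'
  set ω1 := ω0 - (-(φ f0) / (ψ' f0 * φ e) * ω0 e) • ψ' with hω1
  have hψf1 : ψ' f1 = ψ' f0 := by simp [hf1', hψ'e]
  have hφf1 : φ f1 = 0 := by
    simp only [hf1', map_add, map_smul, smul_eq_mul]; field_simp; ring
  have hf := h.mvD haψ' hf1 (-(χ f1) / (ψ' f1 * χ a))
  set f := f1 + (-(χ f1) / (ψ' f1 * χ a) * ψ' f1) • a with hf'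
  set ω := ω1 - (-(χ f1) / (ψ' f1 * χ a) * ω1 a) • ψ' with hω
  have hψf : ψ' f ≠ 0 := by simpa [hf', hψ'a, hψf1] using hψf0
  have hφf : φ f = 0 := by simp [hf', hφf1, ha.z]
  have hχf : χ f = 0 := by
    have := hψf1 ▸ hψf0
    simp only [hf', map_add, map_smul, smul_eq_mul]; field_simp; ring
  have hωa : ω a ≠ 0 := by simpa [hω, hω1, hψ'a] using hω0
  have hfφ : HasT H f φ := h.comm hf.t ha.t hf.z ha.z hφf hωa
  have hfχ : HasT H f χ := h.comm hfφ he.t hφf he.z hχf hφe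
  have e1 : ((χ a)⁻¹ • χ) a = 1 := by simp [hχa]
  have e2 : ((φ e)⁻¹ • φ) e = 1 := by simp [hφe]
  have e3 : ((ψ' f)⁻¹ • ψ') f = 1 := by simp [hψf]
  have k2 : KK H (⊤ ⊓ LinearMap.ker ((χ a)⁻¹ • χ)) e :=
    h.kk_ext trivial e1 (kk_top e) (by simp [he.z]) (h.sc _ _ _ he.z he.t)
  have l2 : LL H (⊥ ⊔ F ∙ a) ((φ e)⁻¹ • φ) :=
    h.ll_ext (ll_bot _) (by simp [ha.z]) (h.sc _ _ _ ha.z ha.t)
  have k3 : KK H (⊤ ⊓ LinearMap.ker ((χ a)⁻¹ • χ) ⊓ LinearMap.ker ((φ e)⁻¹ • φ)) f :=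
    h.kk_ext k2.1 e2 (h.kk_ext trivial e1 (kk_top f) (by simp [hχf]) (h.sc _ _ _ hχf hfχ))
      (by simp [hφf]) (h.sc _ _ _ hφf hfφ)
  have l3 : LL H (⊥ ⊔ F ∙ a ⊔ F ∙ e) ((ψ' f)⁻¹ • ψ') :=
    h.ll_ext (h.ll_ext (ll_bot _) (by simp [hψ'a]) (h.sc _ _ _ hψ'a haψ'.t)) (by simp [hψ'e])
      (h.sc _ _ _ hψ'e heψ'.t)
  refine ⟨_, _, isCompl_ext (isCompl_ext (isCompl_ext isCompl_bot_top trivial (ll_bot (H := H) _).1
    e1) k2.1 l2.1 e2) k3.1 l3.1 e3, h.fl_ext (h.fl_ext (h.fl_ext (fl_bot _) (kk_top a) (ll_bot _) e1)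
      k2 l2 e2) k3 l3 e3, ?_, Submodule.mem_sup_left (Submodule.mem_sup_left
        (Submodule.mem_sup_right (Submodule.mem_span_singleton_self a)))⟩
  have := finrank_ext (ll_bot (H := H) _).1 e1
  have := finrank_ext l2.1 e2
  have := finrank_ext l3.1 e3
  omega

omit [FiniteDimensional F V] in
theorem exists_kills {W C : Submodule F V} (hc : IsCompl W C) (X : Submodule F V) (hX : X ≤ W)
    {w : V} (hw : w ∈ W) (hwX : w ∉ X) : ∃ φ : Dual F V, Kills φ C ∧ Kills φ X ∧ φ w = 1 := by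
  have : w ∉ X ⊔ C := fun h => by
    obtain ⟨x, hx, c, hc', rfl⟩ := Submodule.mem_sup.1 h
    have : c = 0 := Submodule.disjoint_def.1 hc.disjoint c
      (by simpa using W.sub_mem hw (hX hx)) hc'
    exact hwX (by simpa [this] using hx)
  obtain ⟨φ, h1, h2⟩ := exists_dual_of_notMem _ this (1 : F)
  exact ⟨φ, fun c hc => h1 c (Submodule.mem_sup_right hc),
    fun c hc => h1 c (Submodule.mem_sup_left hc), h2⟩

theorem exists_ker_two {W : Submodule F V} (h3 : 3 ≤ finrank F W) (φ ψ : Dual F V) :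
    ∃ w ∈ W, w ≠ 0 ∧ φ w = 0 ∧ ψ w = 0 := by
  have := LinearMap.ker_ne_bot_of_finrank_lt (f := (φ.prod ψ) ∘ₗ W.subtype) (by simp; omega)
  obtain ⟨w, hw, hw0⟩ := (Submodule.ne_bot_iff _).1 this
  have hw' := Prod.ext_iff.1 (LinearMap.mem_ker.1 hw)
  exact ⟨w, w.2, fun h => hw0 (Subtype.ext h), hw'.1, hw'.2⟩

omit [FiniteDimensional F V] in
theorem Hyp.ll_of (h : Hyp H) {W C : Submodule F V} (hc : IsCompl W C) (hf : Fl H W C)
    {κ : Dual F V} (hκ : Kills κ W) {w : V} (hw : w ∈ W) (hw0 : w ≠ 0) (ht : HasT H w κ) :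
    LL H W κ := by
  refine ⟨hκ, fun x hx => ?_⟩
  obtain ⟨φ, h1, -, h2⟩ := exists_kills hc ⊥ bot_le hw (by simpa using hw0)
  have hy : x - φ x • w ∈ W := W.sub_mem hx (W.smul_mem _ hw)
  have h3 : φ (x - φ x • w) = 0 := by simp [h2]
  have := (h.comm (hf _ hy φ h1 h3) ht h3 (hκ w hw) (hκ _ hy) (by simp [h2])).add_left
    (h.sl (hκ w hw) ht (φ x)) (by simp [hκ w hw])
  rwa [sub_add_cancel] at this

omit [FiniteDimensional F V] in
theorem Hyp.kk_of (h : Hyp H) {W C : Submodule F V} (hf : Fl H W C)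
    {k : V} (hk : k ∈ C) {φ : Dual F V} (hφ : Kills φ C) {x : V} (hx : x ∈ W) (h1 : φ x = 1)
    (ht : HasT H k φ) : KK H C k := by
  refine ⟨hk, fun ψ hψ => ?_⟩
  have hμ : Kills (ψ - ψ x • φ) C := fun c hc => by simp [hψ c hc, hφ c hc]
  have h3 : (ψ - ψ x • φ) x = 0 := by simp [h1]
  have := (h.comm ht (hf x hx _ hμ h3) (hφ k hk) h3 (hμ k hk) (by simp [h1])).add_right
    (h.sc k φ (ψ x) (hφ k hk) ht) (hμ k hk)
  rwa [sub_add_cancel] at this

omit [FiniteDimensional F V] in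
theorem exists_dec {W C : Submodule F V} (hc : IsCompl W C) (β : Dual F V) :
    ∃ l κ : Dual F V, Kills l C ∧ Kills κ W ∧ β = l + κ := by
  refine ⟨β ∘ₗ W.projection C hc, β ∘ₗ C.projection W hc.symm, fun c hc' => ?_, fun w hw => ?_, ?_⟩
  · simp [Submodule.projection_apply_of_mem_right hc hc']
  · simp [Submodule.projection_apply_of_mem_right hc.symm hw]
  · rw [← LinearMap.comp_add, Submodule.projection_add_projection_eq_id, LinearMap.comp_id]

/-- The partition of the transvections with respect to a decomposition. -/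
def Part (H : Subgroup (V ≃ₗ[F] V)) (W C : Submodule F V) : Prop :=
  ∀ b β, D H b β → (b ∈ W ∧ Kills β C) ∨ (b ∈ C ∧ Kills β W)

theorem Hyp.part_of_max (h : Hyp H) {W C : Submodule F V} (hc : IsCompl W C) (hf : Fl H W C)
    (h3 : 3 ≤ finrank F W) (hmax : ∀ k κ, KK H C k → LL H W κ → κ k = 0) : Part H W C := by
  have A : ∀ w ∈ W, ∀ k ∈ C, ∀ l κ : Dual F V, Kills l C → Kills κ W → D H (w + k) (l + κ) →
      w ≠ 0 → LL H W κ := by
    intro w hw k hk l κ hl hκ hd hw0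
    obtain ⟨φ, h1, -, h2⟩ := exists_kills hc ⊥ bot_le hw (by simpa using hw0)
    obtain ⟨x, hx, hx0, h4, h5⟩ := exists_ker_two h3 l φ
    have h6 := h.comm (hf x hx φ h1 h5) hd.t h5 hd.z (by simp [h4, hκ x hx])
      (by simp [h2, h1 k hk])
    have h7 := h6.sub_right (hf x hx l hl h4) (by simp [h4, hκ x hx]) h4
    rw [add_sub_cancel_left] at h7
    exact h.ll_of hc hf hκ hx hx0 h7
  have B : ∀ w ∈ W, ∀ k ∈ C, ∀ l κ : Dual F V, Kills l C → Kills κ W → D H (w + k) (l + κ) →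
      l ≠ 0 → KK H C k := by
    intro w hw k hk l κ hl hκ hd hl0
    obtain ⟨x, hx, hlx⟩ : ∃ x ∈ W, l x ≠ 0 := by
      by_contra hn
      push Not at hn
      refine hl0 (LinearMap.ext fun v => ?_)
      obtain ⟨a, ha, b, hb, rfl⟩ := Submodule.mem_sup.1 (hc.sup_eq_top ▸ Submodule.mem_top (x := v))
      simp [hn a ha, hl b hb]
    have hX : Submodule.span F {w, x} ≤ W := by
      rw [Submodule.span_le]; rintro _ (rfl | rfl) <;> assumption
    obtain ⟨y, hy, hyX⟩ : ∃ y ∈ W, y ∉ Submodule.span F {w, x} := by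
      by_contra hn
      push Not at hn
      have := Submodule.finrank_mono (show W ≤ _ from hn)
      have := finrank_span_pair_le (F := F) w x
      omega
    obtain ⟨φ, h1, h2, h4⟩ := exists_kills hc _ hX hy hyX
    have h5 : φ w = 0 := h2 w (Submodule.subset_span (by simp))
    have h6 : φ x = 0 := h2 x (Submodule.subset_span (by simp))
    have h7 := h.comm hd.t (hf x hx φ h1 h6) hd.z h6 (by simp [h5, h1 k hk])
      (by simp [hlx, hκ x hx])
    have h8 := h7.sub_left (hf w hw φ h1 h5) h5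
    rw [add_sub_cancel_left] at h8
    exact h.kk_of hf hk h1 hy h4 h8
  have dec : ∀ b β, D H b β → ∃ w ∈ W, ∃ k ∈ C, ∃ l κ : Dual F V, Kills l C ∧ Kills κ W ∧
      b = w + k ∧ β = l + κ := fun b β _ => by
    obtain ⟨w, hw, k, hk, rfl⟩ := Submodule.mem_sup.1 (hc.sup_eq_top ▸ Submodule.mem_top (x := b))
    obtain ⟨l, κ, h1, h2, h4⟩ := exists_dec hc β
    exact ⟨w, hw, k, hk, l, κ, h1, h2, rfl, h4⟩
  obtain ⟨w0, hw0, hw00, -⟩ := exists_ker_two h3 0 0
  obtain ⟨l0, hl0, -, hl00⟩ := exists_kills hc ⊥ bot_le hw0 (by simpa using hw00)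
  let K : Submodule F V :=
    { carrier := {k | KK H C k}
      zero_mem' := ⟨C.zero_mem, fun φ _ => hasT_zero_left φ⟩
      add_mem' := fun {a b} ha hb => ⟨C.add_mem ha.1 hb.1, fun φ hφ =>
        (ha.2 φ hφ).add_left (hb.2 φ hφ) (hφ b hb.1)⟩
      smul_mem' := fun c a ha => ⟨C.smul_mem c ha.1, fun φ hφ => h.sl (hφ a ha.1) (ha.2 φ hφ) c⟩ }
  have hK : H ≤ stab K := h.inv fun b β hd x hx => by
    obtain ⟨w, hw, k, hk, l, κ, hl, hκ, rfl, rfl⟩ := dec b β hd
    by_cases hw0 : w = 0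
    · subst hw0
      by_cases hl0 : l = 0
      · subst hl0
        rw [zero_add, zero_add] at hd ⊢
        refine ⟨C.add_mem hx.1 (C.smul_mem _ hk), fun φ hφ => ?_⟩
        simpa [hφ k hk] using h.mv hd.z hd.t (hx.2 φ hφ) 1
      · exact K.add_mem hx (K.smul_mem _ (by
          rw [zero_add]; exact B 0 W.zero_mem k hk l κ hl hκ hd hl0))
    · simpa [hl x hx.1, hmax x κ hx (A w hw k hk l κ hl hκ hd hw0)] using hx
  have K0 : ∀ k, KK H C k → k = 0 := fun k hk => by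
    by_contra hk0
    exact h.not_kills hK ⟨hk0, fun h0 => by simp [h0] at hl00, hl0 k hk.1, hk.2 _ hl0⟩ hk
      fun c hc => hl0 c hc.1
  let Y : Submodule F V :=
    { carrier := {v | ∀ κ, LL H W κ → κ v = 0}
      zero_mem' := fun κ _ => map_zero κ
      add_mem' := fun {a b} ha hb κ hκ => by rw [map_add, ha κ hκ, hb κ hκ, add_zero]
      smul_mem' := fun c a ha κ hκ => by rw [map_smul, ha κ hκ, smul_zero] }
  have hWY : W ≤ Y := fun w hw κ hκ => hκ.1 w hw
  have hY : H ≤ stab Y := h.inv fun b β hd x hx => by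
    obtain ⟨w, hw, k, hk, l, κ, hl, hκ, rfl, rfl⟩ := dec b β hd
    by_cases hl0 : l = 0
    · subst hl0
      by_cases hw0 : w = 0
      · subst hw0
        rw [zero_add, zero_add] at hd ⊢
        intro μ hμ
        have := hx (μ - (-1 * μ k) • κ) ⟨fun y hy => by simp [hμ.1 y hy, hκ y hy], fun y hy => by
          simpa [hκ y hy] using h.mv hd.z hd.t (hμ.2 y hy) (-1)⟩
        simp only [LinearMap.sub_apply, LinearMap.smul_apply, smul_eq_mul] at this
        rw [map_add, map_smul, smul_eq_mul]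
        linear_combination this
      · simpa [hx κ (A w hw k hk 0 κ hl hκ hd hw0)] using hx
    · rw [K0 k (B w hw k hk l κ hl hκ hd hl0), add_zero]
      exact Y.add_mem hx (Y.smul_mem _ (hWY hw))
  have L0 : ∀ κ, LL H W κ → κ = 0 := fun κ hκ => by
    by_contra hκ0
    exact h.not_kills hY ⟨hw00, hκ0, hκ.1 w0 hw0, hκ.2 w0 hw0⟩ (hWY hw0) fun c hc => hc κ hκ
  intro b β hd
  obtain ⟨w, hw, k, hk, l, κ, hl, hκ, rfl, rfl⟩ := dec b β hd
  by_cases hl0 : l = 0
  · by_cases hw0 : w = 0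
    · right; simp [hl0, hw0, hk, hκ]
    · exact absurd (by rw [hl0, L0 κ (A w hw k hk l κ hl hκ hd hw0), add_zero]) hd.ne'
  · have hk0 := K0 k (B w hw k hk l κ hl hκ hd hl0)
    have hw0 : w ≠ 0 := fun h0 => hd.ne (by rw [h0, hk0, add_zero])
    left
    simp [hk0, L0 κ (A w hw k hk l κ hl hκ hd hw0), hw, hl]

/-- Every invariant subspace containing `a` contains `W`. -/
def Min (H : Subgroup (V ≃ₗ[F] V)) (W : Submodule F V) (a : V) : Prop :=
  ∀ X : Submodule F V, H ≤ stab X → a ∈ X → W ≤ X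

theorem Hyp.block_SL (h : Hyp H) {a b : V} {φ ψ : Dual F V} (ha : D H a φ) (hb : D H b ψ)
    (h1 : φ b ≠ 0) (h2 : ψ a = 0) :
    ∃ W C, IsCompl W C ∧ Part H W C ∧ Fl H W C ∧ a ∈ W ∧ Min H W a := by
  obtain ⟨W, ⟨C, hc, hf, h3, haW⟩, hmax⟩ := (wellFounded_gt (α := Submodule F V)).has_min
    {W | ∃ C, IsCompl W C ∧ Fl H W C ∧ 3 ≤ finrank F W ∧ a ∈ W} (h.frame ha hb h1 h2)
  refine ⟨W, C, hc, h.part_of_max hc hf h3 fun k κ hk hκ => ?_, hf, haW, fun X hX haX w hw => ?_⟩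
  · by_contra hne
    have hκ' : LL H W ((κ k)⁻¹ • κ) :=
      ⟨fun w hw => by simp [hκ.1 w hw], fun w hw => h.sc _ _ _ (hκ.1 w hw) (hκ.2 w hw)⟩
    have e : ((κ k)⁻¹ • κ) k = 1 := by simp [hne]
    have hr := finrank_ext hκ'.1 e
    refine hmax _ ⟨_, isCompl_ext hc hk.1 hκ'.1 e, h.fl_ext hf hk hκ' e, by omega,
      Submodule.mem_sup_left haW⟩ (lt_of_le_of_ne le_sup_left fun e' => ?_)
    rw [← e'] at hr
    omega
  · obtain ⟨l, hl, -, hla⟩ := exists_kills hc ⊥ bot_le haW (by simpa using ha.ne)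
    have := mem_of_inv hX (hf _ (W.sub_mem hw (W.smul_mem (l w) haW)) l hl (by simp [hla])) haX
      (by simp [hla])
    simpa using X.add_mem this (X.smul_mem (l w) haX)

end H30.McL
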