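import Mathlib
import Cfsg.Agent.Base
import Cfsg.Agent.Lib.McL30.SL

/-!
Groups generated by full transvection groups, odd characteristic: the blocks of symplectic type.
-/

set_option autoImplicit false

namespace H30.McL

open Module H97

variable {F V : Type*} [Field F] [AddCommGroup V] [Module F V] {H : Subgroup (V ≃ₗ[F] V)}

theorem sub_neg_smul (φ ψ : Dual F V) (s : F) : φ - -s • ψ = φ + s • ψ := by
  ext; simp

/-- The transvections on `W` are exactly the symplectic transvections of some form. -/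
def SpT (H : Subgroup (V ≃ₗ[F] V)) (W C : Submodule F V) : Prop :=
  ∃ B : LinearMap.BilinForm F W, B.IsAlt ∧ B.Nondegenerate ∧
    (∀ (a : W) (α : Dual F V), D H a α → ∃ c : F, ∀ x : W, α x = c * B a x) ∧
    ∀ (w : W) (c : F), ∃ l : Dual F V, Kills l C ∧ (∀ x : W, l x = c * B w x) ∧ HasT H w l

/-- Symmetry of the adjacency relation on `X`. -/
def Sym (H : Subgroup (V ≃ₗ[F] V)) (X : Submodule F V) : Prop :=
  ∀ a φ b ψ, D H a φ → D H b ψ → a ∈ X → φ b ≠ 0 → ψ a ≠ 0

/-- The normalised neighbours of `(e, ε)`. -/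
def N1 (H : Subgroup (V ≃ₗ[F] V)) (e : V) (ε : Dual F V) : Set (V × Dual F V) :=
  {m | D H m.1 m.2 ∧ ε m.1 ≠ 0 ∧ m.2 e = -ε m.1}

structure Ctx (H : Subgroup (V ≃ₗ[F] V)) (X : Submodule F V) (e : V) (ε : Dual F V) : Prop where
  h : Hyp H
  inv : H ≤ stab X
  sym : Sym H X
  d : D H e ε
  mem : e ∈ X

namespace Ctx

variable {X : Submodule F V} {e : V} {ε : Dual F V} (c : Ctx H X e ε)
include c

theorem mem_X {m : V × Dual F V} (hm : m ∈ N1 H e ε) : m.1 ∈ X :=
  mem_of_inv c.inv hm.1.t c.mem (by rw [hm.2.2]; simpa using hm.2.1)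

theorem sym_iff {a b : V} {φ ψ : Dual F V} (ha : D H a φ) (hb : D H b ψ) (haX : a ∈ X) :
    φ b = 0 ↔ ψ a = 0 := by
  refine ⟨fun h => by_contra fun h' => ?_, fun h => by_contra fun h' => c.sym a φ b ψ ha hb haX h' h⟩
  exact c.sym b ψ a φ hb ha (mem_of_inv c.inv hb.t haX h') h' h

theorem smul_mem {m : V × Dual F V} (hm : m ∈ N1 H e ε) {s : F} (hs : s ≠ 0) :
    s • m ∈ N1 H e ε :=
  ⟨c.h.slD (c.h.scD hm.1 hs) hs, by simpa [hs] using hm.2.1, by simp [hm.2.2]⟩

theorem add_e {m : V × Dual F V} (hm : m ∈ N1 H e ε) (s : F) : m + s • (e, ε) ∈ N1 H e ε := by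
  have h1 := c.h.mvD c.d hm.1 (s / ε m.1)
  rw [hm.2.2, mul_neg, div_mul_cancel₀ _ hm.2.1, sub_neg_smul] at h1
  exact ⟨h1, by simpa [c.d.z] using hm.2.1, by simp [c.d.z, hm.2.2]⟩

theorem compat1 {m n : V × Dual F V} (hm : m ∈ N1 H e ε) (hn : n ∈ N1 H e ε) :
    m.2 n.1 = -n.2 m.1 := by
  have h1 := c.add_e hn (m.2 n.1 / ε m.1)
  have h2 := (c.sym_iff hm.1 h1.1 (c.mem_X hm)).1 (by simp [hm.2.2, hm.2.1])
  simp only [Prod.snd_add, Prod.smul_snd, LinearMap.add_apply, LinearMap.smul_apply, smul_eq_mul,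
    div_mul_cancel₀ _ hm.2.1] at h2
  linear_combination h2

theorem compat {m n : V × Dual F V} (hm : m ∈ Submodule.span F (N1 H e ε))
    (hn : n ∈ Submodule.span F (N1 H e ε)) : m.2 n.1 = -n.2 m.1 := by
  induction hm using Submodule.span_induction with
  | mem x hx =>
    induction hn using Submodule.span_induction with
    | mem y hy => exact c.compat1 hx hy
    | zero => simp
    | add y z _ _ hy hz => simp [hy, hz, add_comm]
    | smul s y _ hy => simp [hy]
  | zero => simp
  | add y z _ _ hy hz => simp [hy, hz, add_comm]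
  | smul s y _ hy => simp [hy]

theorem self_zero {m : V × Dual F V} (hm : m ∈ Submodule.span F (N1 H e ε)) : m.2 m.1 = 0 := by
  have := c.compat hm hm
  exact (mul_eq_zero.1 (show 2 * m.2 m.1 = 0 by linear_combination this)).resolve_left c.h.two

theorem mem_N1 {b : V} {β : Dual F V} (hb : D H b β) (h : ε b ≠ 0) :
    ∃ s : F, s ≠ 0 ∧ (b, s • β) ∈ N1 H e ε := by
  have h1 := c.sym e ε b β c.d hb c.mem h
  have hs : -ε b / β e ≠ 0 := div_ne_zero (neg_ne_zero.2 h) h1
  exact ⟨_, hs, c.h.scD hb hs, h, by simp [h1]⟩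

theorem mvM {x y : V × Dual F V} (hx : x ∈ Submodule.span F (N1 H e ε))
    (hy : y ∈ Submodule.span F (N1 H e ε)) (dx : D H x.1 x.2) (dy : D H y.1 y.2)
    (hne : x.2 y.1 ≠ 0) (s : F) : D H (y + s • x).1 (y + s • x).2 := by
  have h1 := c.h.mvD dx dy (s / x.2 y.1)
  rwa [c.compat hy hx, mul_neg, div_mul_cancel₀ _ hne, sub_neg_smul] at h1

variable [FiniteDimensional F V]

theorem exists_N1 : ∃ m, m ∈ N1 H e ε := by
  obtain ⟨b, β, hb, -, h⟩ := c.h.opp c.d
  obtain ⟨s, -, hs⟩ := c.mem_N1 hb h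
  exact ⟨_, hs⟩

theorem e_mem : (e, ε) ∈ Submodule.span F (N1 H e ε) := by
  obtain ⟨m, hm⟩ := c.exists_N1
  simpa using Submodule.sub_mem _ (Submodule.subset_span (c.add_e hm 1)) (Submodule.subset_span hm)

theorem add_mem {x y : V × Dual F V} (hx : x ∈ N1 H e ε) (hy : y ∈ N1 H e ε)
    (h : ε (x + y).1 ≠ 0) : x + y ∈ N1 H e ε := by
  refine ⟨?_, h, by simp [hx.2.2, hy.2.2, add_comm]⟩
  by_cases h1 : x.2 y.1 = 0
  · have hx' := c.add_e hx 1
    have hy' := c.add_e hy (-1)
    have := c.mvM (Submodule.subset_span hx') (Submodule.subset_span hy') hx'.1 hy'.1 (by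
      simpa [h1, hx.2.2, c.d.z, add_comm] using h) 1
    convert this using 2 <;> module
  · have := c.mvM (Submodule.subset_span hx) (Submodule.subset_span hy) hx.1 hy.1 h1 1
    rwa [one_smul, add_comm] at this

theorem add_mem' {m : V × Dual F V} (hm : m ∈ Submodule.span F (N1 H e ε)) :
    ∀ x ∈ N1 H e ε, ε (x + m).1 ≠ 0 → x + m ∈ N1 H e ε := by
  induction hm using Submodule.span_induction with
  | mem y hy => exact fun x hx h => c.add_mem hx hy h
  | zero => exact fun x hx _ => by simpa using hx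
  | add y z _ _ hy hz =>
    intro x hx h
    by_cases h1 : ε (x + y).1 = 0
    · by_cases h2 : ε (x + z).1 = 0
      · simp only [Prod.fst_add, map_add] at h1 h2
        have hx0 := hx.2.1
        have h3 := hy _ (c.smul_mem hx c.h.two) (by
          simp only [Prod.fst_add, map_add, Prod.smul_fst, map_smul, smul_eq_mul]
          intro h0; exact hx0 (by linear_combination h0 - h1))
        have h4 := hz _ (c.smul_mem hx (neg_ne_zero.2 (one_ne_zero (α := F)))) (by
          simp only [Prod.fst_add, map_add, Prod.smul_fst, map_smul, smul_eq_mul]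
          intro h0
          exact mul_ne_zero c.h.two hx0 (by linear_combination h2 - h0))
        have e1 : (2 : F) • x + y + ((-1 : F) • x + z) = x + (y + z) := by module
        exact e1 ▸ c.add_mem h3 h4 (e1 ▸ h)
      · have e1 : x + z + y = x + (y + z) := by abel
        exact e1 ▸ hy _ (hz x hx h2) (e1 ▸ h)
    · exact add_assoc x y z ▸ hz _ (hy x hx h1) ((add_assoc x y z).symm ▸ h)
  | smul s y _ hy =>
    intro x hx h
    by_cases hs : s = 0
    · simpa [hs] using hx
    · have e1 : x + s • y = s • (s⁻¹ • x + y) := by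
        rw [smul_add, smul_smul, mul_inv_cancel₀ hs, one_smul]
      rw [e1] at h ⊢
      exact c.smul_mem (hy _ (c.smul_mem hx (inv_ne_zero hs)) (fun h0 => h (by
        rw [Prod.smul_fst, map_smul, h0, smul_zero]))) hs

theorem mem_of_ne {m : V × Dual F V} (hm : m ∈ Submodule.span F (N1 H e ε)) (h : ε m.1 ≠ 0) :
    m ∈ N1 H e ε := by
  obtain ⟨x, hx⟩ := c.exists_N1
  have := c.add_mem' (Submodule.sub_mem _ hm (Submodule.subset_span hx)) x hx (by simpa using h)
  simpa using this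

theorem d_of_ne {m x : V × Dual F V} (hm : m ∈ Submodule.span F (N1 H e ε))
    (hx : x ∈ Submodule.span F (N1 H e ε)) (h : x.2 m.1 ≠ 0) : D H m.1 m.2 := by
  obtain ⟨x, hx, h⟩ : ∃ x ∈ N1 H e ε, x.2 m.1 ≠ 0 := by
    by_contra hn
    push Not at hn
    refine h ?_
    clear h
    induction hx using Submodule.span_induction with
    | mem y hy => exact hn y hy
    | zero => simp
    | add y z _ _ hy hz => simp [hy, hz]
    | smul s y _ hy => simp [hy]
  by_cases h1 : ε m.1 = 0
  · have hx' := Submodule.subset_span (R := F) hx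
    have h2 := c.mem_of_ne (Submodule.add_mem _ hm hx') (by simpa [h1] using hx.2.1)
    have := c.mvM hx' (Submodule.add_mem _ hm hx') hx.1 h2.1 (by simpa [hx.1.z] using h) (-1)
    rwa [show m + x + (-1 : F) • x = m by module] at this
  · exact (c.mem_of_ne hm h1).1

theorem part {b : V} {β : Dual F V} (hb : D H b β) :
    (∃ s : F, s ≠ 0 ∧ (b, s • β) ∈ Submodule.span F (N1 H e ε)) ∨
      ∀ m ∈ Submodule.span F (N1 H e ε), m.2 b = 0 ∧ β m.1 = 0 := by
  by_cases h : ∃ x ∈ N1 H e ε, x.2 b ≠ 0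
  · left
    obtain ⟨x, hx, h⟩ := h
    by_cases h1 : ε b = 0
    · obtain ⟨s, hs, h2⟩ := c.mem_N1 (c.h.mvD hx.1 hb 1) (by simpa [h1, h] using hx.2.1)
      have hx' := Submodule.subset_span (R := F) hx
      have h3 := c.compat1 h2 hx
      simp only [one_mul, LinearMap.smul_apply, LinearMap.sub_apply, hx.1.z, smul_eq_mul, mul_zero,
        sub_zero, map_add, map_smul, add_zero] at h3
      refine ⟨s, hs, ?_⟩
      convert Submodule.sub_mem _ (Submodule.subset_span h2) (Submodule.smul_mem _ (x.2 b) hx')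
        using 1
      refine Prod.ext (by simp) ?_
      simp only [one_mul, Prod.snd_sub, Prod.smul_snd, smul_sub, smul_smul, h3]
      module
    · obtain ⟨s, hs, h2⟩ := c.mem_N1 hb h1
      exact ⟨s, hs, Submodule.subset_span h2⟩
  · right
    push Not at h
    intro m hm
    induction hm using Submodule.span_induction with
    | mem y hy => exact ⟨h y hy, (c.sym_iff hy.1 hb (c.mem_X hy)).1 (h y hy)⟩
    | zero => simp
    | add y z _ _ hy hz => simp [hy, hz]
    | smul s y _ hy => simp [hy]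

omit c [FiniteDimensional F V] in
/-- the space of centres -/
def WW (H : Subgroup (V ≃ₗ[F] V)) (e : V) (ε : Dual F V) : Submodule F V :=
  (Submodule.span F (N1 H e ε)).map (LinearMap.fst F _ _)

omit c [FiniteDimensional F V] in
/-- the intersection of the axes -/
def CC (H : Subgroup (V ≃ₗ[F] V)) (e : V) (ε : Dual F V) : Submodule F V where
  carrier := {v | ∀ m ∈ Submodule.span F (N1 H e ε), m.2 v = 0}
  zero_mem' := fun m _ => map_zero _
  add_mem' := fun {a b} ha hb m hm => by rw [map_add, ha m hm, hb m hm, add_zero]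
  smul_mem' := fun s a ha m hm => by rw [map_smul, ha m hm, smul_zero]

theorem part' : Part H (WW H e ε) (CC H e ε) := fun b β hb => by
  rcases c.part hb with ⟨s, hs, h⟩ | h
  · exact Or.inl ⟨⟨_, h, rfl⟩, fun v hv => by simpa [hs] using hv _ h⟩
  · refine Or.inr ⟨fun m hm => (h m hm).1, ?_⟩
    rintro _ ⟨m, hm, rfl⟩
    exact (h m hm).2

omit c in
theorem _root_.H30.McL.Hyp.inv_left (h : Hyp H) {W C : Submodule F V} (hp : Part H W C) :
    H ≤ stab W := h.inv fun u φ hu x hx => by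
  rcases hp u φ hu with h1 | h1
  · exact W.add_mem hx (W.smul_mem _ h1.1)
  · simpa [h1.2 x hx] using hx

omit c in
theorem _root_.H30.McL.Hyp.inv_right (h : Hyp H) {W C : Submodule F V} (hp : Part H W C) :
    H ≤ stab C := h.inv_left (C := W) fun b β hb => (hp b β hb).symm

theorem rad {r : V × Dual F V} (hr : r ∈ Submodule.span F (N1 H e ε)) (h : r.1 ∈ CC H e ε) :
    r = 0 := by
  have he := c.e_mem
  obtain ⟨x, hx⟩ := c.exists_N1
  have hx' := Submodule.subset_span (R := F) hx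
  have hσ : ∀ m ∈ Submodule.span F (N1 H e ε), r.2 m.1 = 0 := fun m hm => by
    rw [c.compat hr hm, h m hm, neg_zero]
  have hεr : ε r.1 = 0 := h _ he
  have h1 := c.d_of_ne (Submodule.add_mem _ he hr) hx' (by simpa [h x hx', hx.2.2] using hx.2.1)
  obtain ⟨g, hg, eg⟩ := Has.comp h1.t (c.d.t.neg_right c.d.z)
  have hW := c.h.inv_left c.part'
  have hC := c.h.inv_right c.part'
  have heW : e ∈ WW H e ε := ⟨_, he, rfl⟩
  have hrW : r.1 ∈ WW H e ε := ⟨_, hr, rfl⟩
  have eg' : ∀ v, g v = v + ε v • r.1 + r.2 v • (e + r.1) := fun v => by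
    rw [eg]
    simp only [Prod.fst_add, Prod.snd_add, LinearMap.add_apply, LinearMap.neg_apply, map_add,
      map_smul, c.d.z, hσ _ he, smul_zero, add_zero]
    module
  have hg1 := c.h.chain (WW H e ε ⊓ CC H e ε) (WW H e ε ⊔ CC H e ε)
    (fun g hg => mem_stab_of_maps fun v hv =>
      ⟨(mem_stab.1 (hW hg) v).1 hv.1, (mem_stab.1 (hC hg) v).1 hv.2⟩)
    (fun g hg => mem_stab_of_maps fun v hv => by
      obtain ⟨a, ha, b, hb, rfl⟩ := Submodule.mem_sup.1 hv
      rw [map_add]
      exact Submodule.add_mem_sup ((mem_stab.1 (hW hg) a).1 ha) ((mem_stab.1 (hC hg) b).1 hb))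
    g hg (fun v => by
      rw [eg', add_assoc, add_sub_cancel_left]
      exact Submodule.mem_sup_left (Submodule.add_mem _ (Submodule.smul_mem _ _ hrW)
        (Submodule.smul_mem _ _ (Submodule.add_mem _ heW hrW))))
    (fun v hv => by
      obtain ⟨_, ⟨m, hm, rfl⟩, b, hb, rfl⟩ := Submodule.mem_sup.1 hv
      have : r.2 (LinearMap.fst F _ _ m + b) = 0 := by simp [hσ m hm, hb r hr]
      rw [eg', this, zero_smul, add_zero, add_sub_cancel_left]
      exact Submodule.smul_mem _ _ ⟨hrW, h⟩)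
    (fun v hv => by
      have h2 : ε v = 0 := hv.2 _ he
      rw [eg', h2, hv.2 r hr]; simp)
  subst hg1
  have h3 : r.1 = 0 := by
    have := eg' x.1
    simpa [hσ x hx', hx.2.1] using this
  refine Prod.ext h3 (LinearMap.ext fun v => ?_)
  have := eg' v
  simpa [h3, c.d.ne] using this

theorem block : IsCompl (WW H e ε) (CC H e ε) ∧ SpT H (WW H e ε) (CC H e ε) := by
  set M := Submodule.span F (N1 H e ε) with hM
  let f : M →ₗ[F] WW H e ε := (LinearMap.fst F V (Dual F V)).submoduleMap M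
  have hf : Function.Bijective f := by
    refine ⟨LinearMap.ker_eq_bot.1 <| LinearMap.ker_eq_bot'.2 fun m hm => Subtype.ext (c.rad m.2 ?_),
      LinearMap.submoduleMap_surjective _ _⟩
    have : m.1.1 = 0 := congrArg Subtype.val hm
    rw [this]; exact Submodule.zero_mem _
  let s := (LinearEquiv.ofBijective f hf).symm
  have hs : ∀ w, (s w).1.1 = w := fun w =>
    congrArg Subtype.val ((LinearEquiv.ofBijective f hf).apply_symm_apply w)
  have hs' : ∀ m : M, s (f m) = m := fun m => (LinearEquiv.ofBijective f hf).symm_apply_apply m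
  let L : WW H e ε →ₗ[F] Dual F V := LinearMap.snd F _ _ ∘ₗ M.subtype ∘ₗ s.toLinearMap
  let B : LinearMap.BilinForm F (WW H e ε) := L.compl₂ (WW H e ε).subtype
  have hB : ∀ x y, B x y = (s x).1.2 y := fun _ _ => rfl
  have hA : B.IsAlt := fun x => by rw [hB, ← hs x]; exact c.self_zero (s x).2
  have hN : B.Nondegenerate := by
    refine (hA.isRefl.nondegenerate_iff_separatingRight).2 fun y hy => ?_
    have := c.rad (s y).2 fun m hm => by
      rw [hs, ← hy (f ⟨m, hm⟩), hB, hs']
    rw [← s.map_eq_zero_iff]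
    exact Subtype.ext this
  refine ⟨⟨Submodule.disjoint_def.2 ?_, codisjoint_iff.2 (eq_top_iff.2 fun v _ => ?_)⟩,
    B, hA, hN, fun a α ha => ?_, fun w t => ⟨t • (s w).1.2, fun v hv => ?_, fun x => rfl, ?_⟩⟩
  · rintro _ ⟨m, hm, rfl⟩ h
    rw [c.rad hm h, map_zero]
  · let w := (B.toDual hN).symm (-(L.flip v))
    refine Submodule.mem_sup.2 ⟨w, w.2, v - w, fun m hm => ?_, by abel⟩
    have h1 := LinearMap.BilinForm.apply_toDual_symm_apply (hB := hN) (-(L.flip v)) (f ⟨m, hm⟩)
    rw [← hA.neg_eq, hB, hs'] at h1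
    have h2 : L.flip v (f ⟨m, hm⟩) = m.2 v := by
      show (s (f ⟨m, hm⟩)).1.2 v = _
      rw [hs']
    rw [LinearMap.neg_apply, h2] at h1
    rw [map_sub, neg_inj.1 h1, sub_self]
  · rcases c.part ha with ⟨t, ht, h⟩ | h
    · refine ⟨t⁻¹, fun x => ?_⟩
      have : a = f ⟨_, h⟩ := rfl
      rw [hB, this, hs']
      simp [ht]
    · exact absurd (fun v hv => by obtain ⟨m, hm, rfl⟩ := hv; exact (h m hm).2)
        (c.h.not_kills (c.h.inv_left c.part') ha a.2)
  · simp [hv _ (s w).2]
  · by_cases hw : w = 0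
    · subst hw; exact hasT_zero_left _
    · obtain ⟨x, hx⟩ : ∃ x, B x w ≠ 0 := by
        by_contra hn
        push Not at hn
        exact hw (hN.2 w hn)
      have := c.d_of_ne (s w).2 (s x).2 (by rwa [hs])
      rw [hs] at this
      exact c.h.sc _ _ _ this.z this.t

theorem min : Min H (WW H e ε) e := by
  rintro Y hY he _ ⟨m, hm, rfl⟩
  induction hm using Submodule.span_induction with
  | mem y hy => exact mem_of_inv hY hy.1.t he (by rw [hy.2.2]; simpa using hy.2.1)
  | zero => simp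
  | add y z _ _ hy hz => rw [map_add]; exact Y.add_mem hy hz
  | smul s y _ hy => rw [map_smul]; exact Y.smul_mem _ hy

end Ctx

variable [FiniteDimensional F V]

/-- A block of the decomposition. -/
structure Block (H : Subgroup (V ≃ₗ[F] V)) (W C : Submodule F V) : Prop where
  compl : IsCompl W C
  part : Part H W C
  type : Fl H W C ∨ SpT H W C
  min : W = ⊥ ∨ ∃ a α, D H a α ∧ a ∈ W ∧ Min H W a

theorem Hyp.exists_block (h : Hyp H) {a : V} {α : Dual F V} (ha : D H a α) :
    ∃ W C, Block H W C ∧ a ∈ W := by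
  let X : Submodule F V := sInf {X | H ≤ stab X ∧ a ∈ X}
  have haX : a ∈ X := Submodule.mem_sInf.2 fun Y hY => hY.2
  have hX : H ≤ stab X := fun g hg => mem_stab_of_maps fun v hv =>
    Submodule.mem_sInf.2 fun Y hY => (mem_stab.1 (hY.1 hg) v).1 (Submodule.mem_sInf.1 hv Y hY)
  by_cases hs : Sym H X
  · have c : Ctx H X a α := ⟨h, hX, hs, ha, haX⟩
    have he : a ∈ Ctx.WW H a α := ⟨_, c.e_mem, rfl⟩
    exact ⟨_, _, ⟨c.block.1, c.part', Or.inr c.block.2, Or.inr ⟨a, α, ha, he, c.min⟩⟩, he⟩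
  · simp only [Sym, not_forall, not_not] at hs
    obtain ⟨a', φ, b, ψ, ha', hb, ha'X, h1, h2⟩ := hs
    obtain ⟨W, C, hc, hp, hf, haW, hm⟩ := h.block_SL ha' hb h1 h2
    refine ⟨W, C, ⟨hc, hp, Or.inl hf, Or.inr ⟨a', φ, ha', haW, hm⟩⟩, ?_⟩
    refine ((hp a α ha).resolve_right fun h3 => ha'.ne ?_).1
    exact Submodule.disjoint_def.1 hc.disjoint a' haW
      (Submodule.mem_sInf.1 ha'X C ⟨h.inv_right hp, h3.1⟩)

theorem block_bot : Block H ⊥ ⊤ :=
  ⟨isCompl_bot_top, fun b β _ => Or.inr ⟨trivial, (ll_bot (H := H) β).1⟩, Or.inl (fl_bot _),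
    Or.inl rfl⟩

theorem Hyp.le_of_ne (h : Hyp H) {W C W' C' : Submodule F V} (hb : Block H W C)
    (hb' : Block H W' C') (hne : W ≠ W') : W' ≤ C := by
  rcases hb'.min with h0 | ⟨b, β, hbd, hbW, hbm⟩
  · rw [h0]; exact bot_le
  rcases hb.part b β hbd with h1 | h1
  swap
  · exact hbm C (h.inv_right hb.part) h1.1
  exfalso
  have h2 := hbm W (h.inv_left hb.part) h1.1
  rcases hb.min with h0 | ⟨a, α, had, haW, ham⟩
  · exact hbd.ne (by simpa [h0] using h1.1)
  rcases hb'.part a α had with h3 | h3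
  · exact hne (le_antisymm (ham W' (h.inv_left hb'.part) h3.1) h2)
  · exact hbd.ne (Submodule.disjoint_def.1 hb'.compl.disjoint b hbW
      (ham C' (h.inv_right hb'.part) h3.1 h1.1))

end H30.McL
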