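import Mathlib
import Cfsg.Agent.Base
import Cfsg.Agent.Lib.McL30.Sp
import Cfsg.Agent.Lib.Core.PCore

/-!
McLaughlin's theorem on groups generated by transvections over a prime field of odd order.
-/

set_option autoImplicit false

namespace H30.McL

open Module H97

section General

variable {F V : Type*} [Field F] [AddCommGroup V] [Module F V] {H : Subgroup (V ≃ₗ[F] V)}

/-- restriction to an invariant subspace -/
def res (W : Submodule F V) : stab W →* (W ≃ₗ[F] W) where
  toFun g := g.1.ofSubmodules W W (mem_stab_iff_map.1 g.2)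
  map_one' := LinearEquiv.ext fun _ => rfl
  map_mul' _ _ := LinearEquiv.ext fun _ => rfl

theorem res_apply {W : Submodule F V} (g : stab W) (x : W) : (res W g x : V) = g.1 x := rfl

/-- the pointwise stabiliser -/
def fix (C : Submodule F V) : Subgroup (V ≃ₗ[F] V) where
  carrier := {g | ∀ c ∈ C, g c = c}
  one_mem' _ _ := rfl
  mul_mem' {a b} ha hb c hc := by rw [le_mul_apply, hb c hc, ha c hc]
  inv_mem' {a} ha c hc := by rw [le_inv_apply, LinearEquiv.symm_apply_eq, ha c hc]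

theorem eq_of_compl {W C : Submodule F V} (hc : IsCompl W C) {a b : V ≃ₗ[F] V}
    (h1 : ∀ w ∈ W, a w = b w) (h2 : ∀ w ∈ C, a w = b w) : a = b := LinearEquiv.ext fun v => by
  obtain ⟨x, hx, y, hy, rfl⟩ := Submodule.mem_sup.1 (hc.sup_eq_top ▸ Submodule.mem_top (x := v))
  rw [map_add, map_add, h1 x hx, h2 y hy]

variable [FiniteDimensional F V]

theorem Hyp.res_mem (h : Hyp H) {W C : Submodule F V} (hp : Part H W C)
    (G : Subgroup (W ≃ₗ[F] W))
    (hG : ∀ (a : W) (α : Dual F V), D H a α → HasT G a (α ∘ₗ W.subtype)) {g : V ≃ₗ[F] V}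
    (hg : g ∈ H) : res W ⟨g, h.inv_left hp hg⟩ ∈ G := by
  have : H ≤ (G.comap (res W)).map (stab W).subtype := h.gen _ fun u φ hu => by
    obtain ⟨t, ht, e⟩ := hu.t.elim
    refine ⟨t, ⟨⟨t, h.inv_left hp ht⟩, ?_, rfl⟩, e⟩
    rcases hp u φ hu with h1 | h1
    · exact Has.mem (hG ⟨u, h1.1⟩ φ hu) fun x => Subtype.ext (e x)
    · have : res W ⟨t, h.inv_left hp ht⟩ = 1 := LinearEquiv.ext fun x => Subtype.ext (by
        rw [res_apply, e, h1.2 x x.2]; simp)
      show res W _ ∈ G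
      rw [this]; exact G.one_mem
  obtain ⟨g', hg', rfl⟩ := this hg
  exact hg'

theorem Hyp.exists_rho (h : Hyp H) {W C : Submodule F V} (hb : Block H W C) :
    ∃ ρ : ↥(H ⊓ fix C) →* (W ≃ₗ[F] W), (∀ (g : ↥(H ⊓ fix C)) (v : W), (ρ g v : V) = g.1 v) ∧
      ((ρ.range : Set (W ≃ₗ[F] W)) = {f : W ≃ₗ[F] W | LinearMap.det (f : W →ₗ[F] W) = 1} ∨
        ∃ B : LinearMap.BilinForm F W, B.IsAlt ∧ B.Nondegenerate ∧
          (ρ.range : Set (W ≃ₗ[F] W)) = {f : W ≃ₗ[F] W | ∀ x y, B (f x) (f y) = B x y}) := by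
  let ρ : ↥(H ⊓ fix C) →* (W ≃ₗ[F] W) :=
    (res W).comp (Subgroup.inclusion (inf_le_left.trans (h.inv_left hb.part)))
  have key : ∀ (w : W) (l : Dual F V) (φ : Dual F W), Kills l C → (∀ x : W, l x = φ x) →
      HasT H w l → HasT ρ.range w φ := fun w l φ hl e ht => by
    obtain ⟨g, hg, eg⟩ := ht.elim
    refine ⟨_, ⟨⟨g, hg, fun c hc => by rw [eg, hl c hc]; simp⟩, rfl⟩, fun x => Subtype.ext ?_⟩
    show g x = _
    rw [eg, e]; rfl
  refine ⟨ρ, fun _ _ => rfl, ?_⟩
  rcases hb.type with hf | ⟨B, hA, hN, h1, h2⟩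
  · left
    have : ρ.range = SLV F W := by
      refine le_antisymm ?_ (SLV_le_of_all fun w φ hw => ?_)
      · rintro _ ⟨g, rfl⟩
        exact h.res_mem hb.part _ (fun a α ha => hasT_SLV ha.z) g.2.1
      · refine key w (φ ∘ₗ W.projectionOnto C hb.compl) φ (fun c hc => ?_) (fun x => by simp)
          (hf w w.2 _ (fun c hc => ?_) (by simpa using hw)) <;>
        simp [Submodule.projectionOnto_apply_of_mem_right hb.compl hc]
    rw [this]
    exact Set.ext fun f => mem_SLV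
  · right
    refine ⟨B, hA, hN, ?_⟩
    have : ρ.range = (H28.PQ.ofAlt B hA).Isom := by
      refine le_antisymm ?_ (isom_le_of_transv hN.1 fun c d => ?_)
      · rintro _ ⟨g, rfl⟩
        refine h.res_mem hb.part _ (fun a α ha => ?_) g.2.1
        obtain ⟨c, hc⟩ := h1 a α ha
        obtain ⟨t, -, e⟩ := (hasT_SLV (u := a) (φ := α ∘ₗ W.subtype) ha.z).elim
        refine ⟨t, H28.PQ.mem_isom_ofAlt.2 fun x y => ?_, e⟩
        rw [e, e]
        simp only [LinearMap.comp_apply, Submodule.subtype_apply, hc, map_add, map_smul,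
          LinearMap.add_apply, LinearMap.smul_apply, smul_eq_mul, hA a, ← hA.neg_eq a x]
        ring
      · obtain ⟨l, hl, e, ht⟩ := h2 d c
        exact key d l _ hl e ht
    rw [this]
    exact Set.ext fun f => H28.PQ.mem_isom_ofAlt

theorem Hyp.main [Finite V] (h : Hyp H) :
    ∃ (n : ℕ) (W : Fin (n + 1) → Submodule F V) (K : Fin n → Subgroup (V ≃ₗ[F] V)),
      1 ≤ n ∧ DirectSum.IsInternal W ∧
      (∀ g ∈ H, ∀ i, (W i).map (g : V →ₗ[F] V) = W i) ∧
      (∀ j, K j ≤ H ∧ ((K j).subgroupOf H).Normal) ∧ ⨆ j, K j = H ∧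
      (∀ j, K j ⊓ (⨆ j' ∈ {j' : Fin n | j' ≠ j}, K j') = ⊥) ∧
      (∀ j j', j ≠ j' → ∀ a ∈ K j, ∀ b ∈ K j', a * b = b * a) ∧
      (∀ j, ∀ g ∈ K j, ∀ i : Fin (n + 1), i ≠ j.succ → ∀ v ∈ W i, g v = v) ∧
      (∀ j, ∃ ρ : ↥(K j) →* (↥(W j.succ) ≃ₗ[F] ↥(W j.succ)),
        (∀ (g : ↥(K j)) (v : ↥(W j.succ)), ((ρ g v : ↥(W j.succ)) : V) = (g : V ≃ₗ[F] V) (v : V)) ∧
        ((ρ.range : Set (↥(W j.succ) ≃ₗ[F] ↥(W j.succ))) =
            {f : ↥(W j.succ) ≃ₗ[F] ↥(W j.succ) |
              LinearMap.det (f : ↥(W j.succ) →ₗ[F] ↥(W j.succ)) = 1} ∨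
          ∃ B : LinearMap.BilinForm F ↥(W j.succ), B.IsAlt ∧ B.Nondegenerate ∧
            (ρ.range : Set (↥(W j.succ) ≃ₗ[F] ↥(W j.succ))) =
              {f : ↥(W j.succ) ≃ₗ[F] ↥(W j.succ) | ∀ x y, B (f x) (f y) = B x y})) := by
  classical
  let S := {W : Submodule F V // ∃ C, Block H W C}
  have : Nonempty S := ⟨⟨⊥, ⊤, block_bot⟩⟩
  have : Finite (Submodule F V) := Finite.of_injective _ SetLike.coe_injective
  let n := Nat.card S
  let e : Fin n ≃ S := (Finite.equivFin S).symm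
  let U : Fin n → Submodule F V := fun j => (e j).1
  choose C hC using fun j => (e j).2
  have hUC : ∀ i j, i ≠ j → U i ≤ C j := fun i j hij =>
    h.le_of_ne (hC j) (hC i) fun h0 => hij (e.injective (Subtype.ext h0.symm))
  let π : Fin n → V →ₗ[F] V := fun j => (U j).projection (C j) (hC j).compl
  have hπ : ∀ j v, π j v ∈ U j := fun j v => Submodule.projection_apply_mem _ _
  let W : Fin (n + 1) → Submodule F V := Fin.cons (⨅ j, C j) U
  have hWC : ∀ j i, i ≠ Fin.succ j → W i ≤ C j := fun j i => by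
    refine Fin.cases (fun _ => iInf_le _ j) (fun i hi => hUC i j fun h0 => hi (by rw [h0])) i
  refine ⟨n, W, fun j => H ⊓ fix (C j), Nat.card_pos, ?_, fun g hg i => ?_,
    fun j => ⟨inf_le_left, ⟨fun a ha g => ⟨(g * a * g⁻¹).2, fun c hc => ?_⟩⟩⟩,
    le_antisymm (iSup_le fun j => inf_le_left) (h.gen _ fun u φ hu => ?_), fun j => ?_,
    fun j j' hjj a ha b hb => eq_of_compl (hC j).compl (fun w hw => ?_) fun w hw => ?_,
    fun j g hg i hi v hv => hg.2 v (hWC j i hi hv), fun j => h.exists_rho (hC j)⟩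
  · rw [DirectSum.isInternal_submodule_iff_iSupIndep_and_iSup_eq_top]
    refine ⟨fun i => ?_, eq_top_iff.2 fun v _ => ?_⟩
    rcases Fin.eq_zero_or_eq_succ i with rfl | ⟨j, rfl⟩
    · have h1 : (⨆ j, ⨆ (_ : j ≠ 0), W j) ≤ LinearMap.eqLocus (∑ j, π j) LinearMap.id := by
        refine iSup₂_le fun j => Fin.cases (fun h0 => absurd rfl h0) (fun j _ v hv => ?_) j
        rw [LinearMap.mem_eqLocus, LinearMap.sum_apply, Finset.sum_eq_single j (fun i _ hi =>
          Submodule.projection_apply_of_mem_right _ (hUC j i hi.symm hv)) (by simp)]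
        exact Submodule.projection_apply_of_mem_left _ hv
      refine Submodule.disjoint_def.2 fun v hv hv' => ?_
      have h2 := LinearMap.mem_eqLocus.1 (h1 hv')
      have hv2 : v ∈ ⨅ j, C j := hv
      rw [LinearMap.sum_apply, Finset.sum_eq_zero fun j _ =>
        Submodule.projection_apply_of_mem_right (hC j).compl ((Submodule.mem_iInf _).1 hv2 j)] at h2
      exact h2.symm
    · exact (hC j).compl.disjoint.mono_right (iSup₂_le (hWC j))
    · rw [← sub_add_cancel v (∑ j, π j v)]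
      refine Submodule.add_mem _ (Submodule.mem_iSup_of_mem 0 ((Submodule.mem_iInf _).2 fun i => ?_))
        (Submodule.sum_mem _ fun j _ => Submodule.mem_iSup_of_mem j.succ (hπ j v))
      rw [← Finset.add_sum_erase _ _ (Finset.mem_univ i), ← sub_sub]
      refine Submodule.sub_mem _ ?_ (Submodule.sum_mem _ fun j hj =>
        hUC j i (Finset.ne_of_mem_erase hj) (hπ j v))
      rw [← Submodule.projection_eq_self_sub_projection]
      exact Submodule.projection_apply_mem _ _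
  · refine mem_stab_iff_map.1 (Fin.cases ?_ (fun j => h.inv_left (hC j).part hg) i)
    exact mem_stab_of_maps fun v hv => (Submodule.mem_iInf _).2 fun j =>
      (mem_stab.1 (h.inv_right (hC j).part hg) v).1 ((Submodule.mem_iInf _).1 hv j)
  · show g.1 (a.1 (g.1⁻¹ c)) = c
    have ha' : ∀ c ∈ C j, a.1 c = c := ha.2
    rw [ha' _ ((mem_stab.1 (h.inv_right (hC j).part (H.inv_mem g.2)) c).1 hc), le_apply_inv]
  · obtain ⟨W', C', hb, hu'⟩ := h.exists_block hu
    obtain ⟨j, hj⟩ := e.surjective ⟨W', C', hb⟩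
    have huj : u ∈ U j := by simpa [U, hj] using hu'
    have hk := ((hC j).part u φ hu).resolve_right fun h0 =>
      hu.ne (Submodule.disjoint_def.1 (hC j).compl.disjoint u huj h0.1)
    obtain ⟨t, ht, et⟩ := hu.t.elim
    exact ⟨t, Subgroup.mem_iSup_of_mem j ⟨ht, fun c hc => by rw [et, hk.2 c hc]; simp⟩, et⟩
  · rw [eq_bot_iff]
    intro g hg
    have h1 : (⨆ j' ∈ {j' : Fin n | j' ≠ j}, H ⊓ fix (C j')) ≤ fix (U j) :=
      iSup₂_le fun j' hj' g hg v hv => hg.2 v (hUC j j' (Ne.symm hj') hv)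
    exact eq_of_compl (hC j).compl (h1 hg.2) hg.1.2
  · rw [le_mul_apply, le_mul_apply, hb.2 w (hUC j j' hjj hw),
      hb.2 _ (hUC j j' hjj ((mem_stab.1 (h.inv_left (hC j).part ha.1) w).1 hw))]
  · rw [le_mul_apply, le_mul_apply, ha.2 w hw,
      ha.2 _ ((mem_stab.1 (h.inv_right (hC j).part hb.1) w).1 hw)]

end General

section Prime

variable {p : ℕ} [hp : Fact p.Prime] {V : Type*} [AddCommGroup V] [Module (ZMod p) V] [Finite V]

omit [Finite V] in
theorem pow_eq_one_of_cube (h3 : 3 ≤ p) {g : V ≃ₗ[ZMod p] V}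
    (h : ((g : End (ZMod p) V) - 1) ^ 3 = 0) : g ^ p = 1 := by
  obtain ⟨r, hr⟩ := (Commute.one_left ((g : End (ZMod p) V) - 1)).exists_add_pow_prime_eq hp.out
  have h0 : (p : End (ZMod p) V) = 0 := by
    rw [← map_natCast (algebraMap (ZMod p) _), ZMod.natCast_self, map_zero]
  rw [add_sub_cancel, h0, pow_eq_zero_of_le h3 h] at hr
  refine LinearEquiv.toLinearMap_injective ?_
  have := map_pow LinearEquiv.automorphismGroup.toLinearMapMonoidHom g p
  refine this.trans (hr.trans ?_)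
  simp [Module.End.one_eq_id]

theorem hyp_of (ho : Odd p) {H : Subgroup (V ≃ₗ[ZMod p] V)} {T : Set (V ≃ₗ[ZMod p] V)}
    (hHT : H = Subgroup.closure T)
    (hT : ∀ t ∈ T, orderOf t = p ∧
      finrank (ZMod p) ↥(LinearMap.ker ((t : V →ₗ[ZMod p] V) - LinearMap.id)) + 1 =
        finrank (ZMod p) V)
    (hOp : Cfsg.pCore p ↥H = ⊥) : Hyp H := by
  have hp2 : p ≠ 2 := by rintro rfl; exact absurd ho (by decide)
  have h3 : 3 ≤ p := by have := hp.out.two_le; omega
  refine ⟨fun h0 => hp2 ?_, fun u φ c hz ht => ?_, fun N hN => ?_, fun X Y hX hY g hg h1 h2 h4 => ?_⟩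
  · exact (Nat.prime_dvd_prime_iff_eq hp.out Nat.prime_two).1
      ((ZMod.natCast_eq_zero_iff 2 p).1 (by exact_mod_cast h0))
  · obtain ⟨k, rfl⟩ := ZMod.natCast_zmod_surjective c
    induction k with
    | zero => simpa using hasT_zero_right u
    | succ k ih => rw [Nat.cast_succ, add_smul, one_smul]; exact ih.add_right ht (by simp [hz])
  · rw [hHT, Subgroup.closure_le]
    intro t ht
    obtain ⟨ho, hr⟩ := hT t ht
    set f := (t : V →ₗ[ZMod p] V) - LinearMap.id with hf
    have h1 : finrank (ZMod p) (LinearMap.range f) = 1 := by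
      have := f.finrank_range_add_finrank_ker; omega
    obtain ⟨⟨u, hu⟩, hu0, hu1⟩ := finrank_eq_one_iff'.1 h1
    have hu0' : u ≠ 0 := fun h0 => hu0 (Subtype.ext h0)
    obtain ⟨ψ, hψ⟩ := exists_dual_of_ne_zero hu0' (1 : ZMod p)
    have e : ∀ x, t x = x + (ψ ∘ₗ f) x • u := fun x => by
      obtain ⟨c, hc⟩ := hu1 ⟨f x, x, rfl⟩
      have hc' : c • u = f x := congrArg Subtype.val hc
      rw [LinearMap.comp_apply, ← hc', map_smul, hψ, smul_eq_mul, mul_one, hc', hf]
      simp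
    have hk : ∀ k : ℕ, (t ^ k) u = (1 + (ψ ∘ₗ f) u) ^ k • u := fun k => by
      induction k with
      | zero => simp
      | succ k ih => rw [pow_succ', le_mul_apply, ih, map_smul, e]; module
    have hz : (ψ ∘ₗ f) u = 0 := by
      have := hk p
      rw [show t ^ p = 1 from (congrArg (t ^ ·) ho).symm.trans (pow_orderOf_eq_one t),
        ZMod.pow_card, add_smul, one_smul] at this
      simpa [hu0'] using this
    refine Has.mem (hN u _ ⟨hu0', fun h0 => ?_, hz, t, hHT ▸ Subgroup.subset_closure ht, e⟩) e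
    have : t = 1 := LinearEquiv.ext fun x => by rw [e, h0]; simp
    rw [this, orderOf_one] at ho
    omega
  · let N : Subgroup H :=
      { carrier := {g | (∀ v, g.1 v - v ∈ Y) ∧ (∀ v ∈ Y, g.1 v - v ∈ X) ∧ ∀ v ∈ X, g.1 v = v}
        one_mem' := ⟨fun v => by simp, fun v _ => by simp, fun _ _ => rfl⟩
        mul_mem' := fun {a b} ha hb => ⟨fun v => by
            simpa using Y.add_mem (ha.1 (b.1 v)) (hb.1 v), fun v hv => by
            simpa using X.add_mem (ha.2.1 _ ((mem_stab.1 (hY b.2) v).1 hv)) (hb.2.1 v hv),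
          fun v hv => by
            show a.1 (b.1 v) = v
            rw [hb.2.2 v hv, ha.2.2 v hv]⟩
        inv_mem' := fun {a} ha => ⟨fun v => by
            simpa [le_apply_inv] using Y.neg_mem (ha.1 (a.1⁻¹ v)), fun v hv => by
            simpa [le_apply_inv] using
              X.neg_mem (ha.2.1 _ ((mem_stab.1 (hY (H.inv_mem a.2)) v).1 hv)),
          fun v hv => by
            show a.1.symm v = v
            rw [LinearEquiv.symm_apply_eq, ha.2.2 v hv]⟩ }
    have hN : N.Normal := ⟨fun a ha g => ⟨fun v => by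
        simpa [le_apply_inv] using (mem_stab.1 (hY g.2) _).1 (ha.1 (g.1⁻¹ v)), fun v hv => by
        simpa [le_apply_inv] using (mem_stab.1 (hX g.2) _).1
          (ha.2.1 _ ((mem_stab.1 (hY (H.inv_mem g.2)) v).1 hv)), fun v hv => by
        show g.1 (a.1 (g.1⁻¹ v)) = v
        rw [ha.2.2 _ ((mem_stab.1 (hX (H.inv_mem g.2)) v).1 hv), le_apply_inv]⟩⟩
    have hP : IsPGroup p N := fun a => ⟨1, Subtype.ext (Subtype.ext (by
      rw [pow_one]
      refine pow_eq_one_of_cube h3 (LinearMap.ext fun v => ?_)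
      have := a.2.2.2 _ (a.2.2.1 _ (a.2.1 v))
      simpa [pow_succ, sub_eq_zero] using this))⟩
    have := H1.le_pCore hP (show (⟨g, hg⟩ : H) ∈ N from ⟨h1, h2, h4⟩)
    rw [hOp] at this
    exact congrArg Subtype.val (Subgroup.mem_bot.1 this)

end Prime

end H30.McL
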